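import Mathlib
import Cfsg.Prelude.Def_Solvable
import Cfsg.Prelude.Def_Transfer

set_option autoImplicit false

namespace Cfsg.Agent.Lib.Helper71.GS

/-- A faithful linear action on a vector space over the prime field which is transitive on the
nonzero vectors and in which elements of order prime to `p` fix no nonzero vector. -/
structure LA (p : ℕ) {X : Type*} [Group X] {V : Type*} [AddCommGroup V] [Module (ZMod p) V]
    (ρ : X →* (V ≃ₗ[ZMod p] V)) : Prop where
  inj : Function.Injective ρ
  trans : ∀ v w : V, v ≠ 0 → w ≠ 0 → ∃ g : X, ρ g v = w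
  fix : ∀ (g : X) (v : V), v ≠ 0 → ρ g v = v → (orderOf g).Coprime p → g = 1

/-- The conclusion: normal `p`-complement and commutative Sylow `p`-subgroups. -/
def Concl (p : ℕ) (X : Type*) [Group X] : Prop :=
  Cfsg.HasNormalPComplement p X ∧ ∀ Q : Sylow p X, IsMulCommutative (Q : Subgroup X)

/-- The stabilizer of a vector. -/
def stab {p : ℕ} {X : Type*} [Group X] {V : Type*} [AddCommGroup V] [Module (ZMod p) V]
    (ρ : X →* (V ≃ₗ[ZMod p] V)) (v : V) : Subgroup X where
  carrier := {g | ρ g v = v}
  one_mem' := by simp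
  mul_mem' := by
    intro a b ha hb
    simp only [Set.mem_ofPred_eq] at ha hb ⊢
    rw [map_mul, LinearEquiv.mul_apply, hb, ha]
  inv_mem' := by
    intro a ha
    simp only [Set.mem_ofPred_eq] at ha ⊢
    have h : ρ a⁻¹ (ρ a v) = v := by
      rw [← LinearEquiv.mul_apply, ← map_mul, inv_mul_cancel, map_one]; rfl
    rw [ha] at h
    exact h

theorem mem_stab {p : ℕ} {X : Type*} [Group X] {V : Type*} [AddCommGroup V] [Module (ZMod p) V]
    (ρ : X →* (V ≃ₗ[ZMod p] V)) (v : V) (g : X) : g ∈ stab ρ v ↔ ρ g v = v := Iff.rfl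

end Cfsg.Agent.Lib.Helper71.GS
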